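import Cfsg.Agent.H667.TwoPSUModel
import Cfsg.Agent.H667.TwoPSUGrp
import Cfsg.Agent.H77.CW
import Cfsg.Agent.H77.Heis
import Cfsg.Agent.H77.GeomD
import Cfsg.Agent.H77.Step2

/-!
# `PSU_4(q)`: root groups, their unipotent groups and class sizes (helper361, S5719)
-/

set_option autoImplicit false
set_option linter.unusedSectionVars false

namespace Cfsg.Agent.H361.IFU4

open Cfsg Subgroup Cfsg.Agent.LieClassical.HermBasic Cfsg.Agent.LieClassical.HermSiegel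
  Cfsg.Agent.LieClassical.HermGen Cfsg.Agent.ClassicalGeometry.PSUAutBasic
  Cfsg.Agent.ClassicalGeometry.PSUAutSylow Cfsg.Agent.ClassicalGeometry.PSUAutUnip Cfsg.Agent.H667.TwoPSUModel
open scoped commutatorElement

variable {F : Type*} [Field F] [Fintype F] {q : ℕ}

theorem card_ZZ4 (hF : Fintype.card F = q ^ 2) : Nat.card (ZZ hF 4) = (q ^ 2 + 1) * (q ^ 3 + 1) := by
  have h1 := card_ZZ hF (n := 4) (by norm_num)
  have hq := two_le hF
  have h2 : ((Nat.card (ZZ hF 4) : ℤ)) * ((q : ℤ) ^ 2 - 1) = ((q ^ 2 + 1) * (q ^ 3 + 1)) * ((q : ℤ) ^ 2 - 1) := by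
    rw [h1]
    norm_num
    ring
  have h3 : ((q : ℤ) ^ 2 - 1) ≠ 0 := by
    have : (2 : ℤ) ≤ q := by exact_mod_cast hq
    nlinarith
  have h4 := mul_right_cancel₀ h3 h2
  exact_mod_cast h4

theorem card_QQ (hF : Fintype.card F = q ^ 2) {u : Fin 4 → F} (hu0 : u ≠ 0) (hu : hermForm 4 F q u u = 0) :
    Nat.card (QQ hF u hu) = q ^ 5 := by
  obtain ⟨e, f, H⟩ := exists_frame (F := F) (q := q) hF (n := 4) (by norm_num)
  have he0 : e ≠ 0 := by
    intro h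
    have := H.ef
    rw [h, herm_zero_left] at this
    exact zero_ne_one this
  obtain ⟨g, -, hg⟩ := exists_map_iso hF (n := 4) (k := 4) (by norm_num) le_rfl (mem_coordSub_top e)
    (mem_coordSub_top u) he0 hu0 H.ee hu
  have h1 : Nat.card (QQ hF e H.ee) = q ^ 5 := by
    rw [card_QQ_frame hF (by norm_num) H]
  subst hg
  rw [← QQ_map_conj hF H.ee g hu, ← h1]
  exact (Nat.card_congr ((QQ hF e H.ee).equivMapOfInjective _ (MulAut.conj (pr 4 F q g)).injective).toEquiv).symm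

theorem card_subgroupOf {G : Type*} [Group G] (A Q : Subgroup G) :
    Nat.card (A.subgroupOf Q) = Nat.card (A ⊓ Q : Subgroup G) := by
  rw [← Subgroup.inf_subgroupOf_right, Nat.card_congr (Subgroup.subgroupOfEquivOfLe (inf_le_right : A ⊓ Q ≤ Q)).toEquiv]

variable [Finite (PSU 4 F q)]

theorem heis (hF : Fintype.card F = q ^ 2) {u : Fin 4 → F} (hu0 : u ≠ 0) (hu : hermForm 4 F q u u = 0)
    {A : Subgroup (PSU 4 F q)} (hA : ¬ RR hF u hu ≤ A) :
    Nat.card (A ⊓ QQ hF u hu : Subgroup (PSU 4 F q)) ^ 2 * q ≤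
      q ^ 5 * Nat.card (A ⊓ RR hF u hu : Subgroup (PSU 4 F q)) ^ 2 := by
  have hle := RR_le_QQ hF hu
  have h1 := H667.TwoPSUGrp.heis_bound (Q := QQ hF u hu) (Z := (RR hF u hu).subgroupOf (QQ hF u hu))
    (A := A.subgroupOf (QQ hF u hu)) (by
      intro z hz
      rw [mem_center_iff]
      intro g
      exact Subtype.ext (QQ_cen hF hu z.1 hz g.1 g.2)) (by
      intro x y
      exact QQ_comm hF hu x.1 x.2 y.1 y.2) (by
      intro x hx z hz
      obtain ⟨v, hv, h⟩ := QQ_surj hF hu0 hu x.1 x.2 (fun h => hx h) z.1 hz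
      exact ⟨⟨v, hv⟩, Subtype.ext h⟩) (by
      intro h
      apply hA
      intro z hz
      exact h (show (⟨z, hle hz⟩ : QQ hF u hu) ∈ (RR hF u hu).subgroupOf (QQ hF u hu) from hz))
  have h2 : A.subgroupOf (QQ hF u hu) ⊓ (RR hF u hu).subgroupOf (QQ hF u hu) =
      (A ⊓ RR hF u hu).subgroupOf (QQ hF u hu) := rfl
  rw [h2, card_subgroupOf, card_subgroupOf, card_subgroupOf, card_QQ hF hu0 hu, inf_eq_left.2 hle,
    card_RR hF (by norm_num) hu0 hu, inf_assoc, inf_eq_left.2 hle] at h1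
  exact h1

theorem card_mul_relIndex (hF : Fintype.card F = q ^ 2) {u : Fin 4 → F} (hu0 : u ≠ 0)
    (hu : hermForm 4 F q u u = 0) (A : Subgroup (PSU 4 F q)) :
    Nat.card (A ⊓ QQ hF u hu : Subgroup (PSU 4 F q)) * A.relIndex (QQ hF u hu) = q ^ 5 := by
  rw [← card_QQ hF hu0 hu, ← card_subgroupOf, Subgroup.relIndex, Subgroup.card_mul_index]

theorem RR_le_of (hF : Fintype.card F = q ^ 2) {u : Fin 4 → F} (hu0 : u ≠ 0) (hu : hermForm 4 F q u u = 0)
    {A : Subgroup (PSU 4 F q)} (hi : A.relIndex (QQ hF u hu) ^ 5 < q ^ 6) : RR hF u hu ≤ A := by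
  by_contra hcon
  have hq := two_le hF
  have h1 := heis hF hu0 hu hcon
  have h2 := card_mul_relIndex hF hu0 hu A
  have h3 : Nat.card (A ⊓ RR hF u hu : Subgroup (PSU 4 F q)) ≤ q := by
    have h4 := Subgroup.card_le_of_le (inf_le_right : A ⊓ RR hF u hu ≤ RR hF u hu)
    rwa [card_RR hF (by norm_num) hu0 hu] at h4
  set d := Nat.card (A ⊓ QQ hF u hu : Subgroup (PSU 4 F q))
  set c := Nat.card (A ⊓ RR hF u hu : Subgroup (PSU 4 F q))
  set i := A.relIndex (QQ hF u hu)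
  have h4 : q ^ 6 * q ^ 5 ≤ (c * i) ^ 2 * q ^ 5 := by
    calc q ^ 6 * q ^ 5 = (d * i) ^ 2 * q := by rw [h2]; ring
      _ = (d ^ 2 * q) * i ^ 2 := by ring
      _ ≤ (q ^ 5 * c ^ 2) * i ^ 2 := Nat.mul_le_mul_right _ h1
      _ = _ := by ring
  have h5 : (q ^ 3) ^ 2 ≤ (c * i) ^ 2 := by
    have := Nat.le_of_mul_le_mul_right h4 (by positivity)
    calc (q ^ 3) ^ 2 = q ^ 6 := by ring
      _ ≤ _ := this
  have h6 : q ^ 3 ≤ c * i := (Nat.pow_le_pow_iff_left two_ne_zero).1 h5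
  have h7 : q ^ 2 ≤ i := by
    have h8 : q * q ^ 2 ≤ q * i := by
      calc q * q ^ 2 = q ^ 3 := by ring
        _ ≤ c * i := h6
        _ ≤ q * i := Nat.mul_le_mul_right _ h3
    exact Nat.le_of_mul_le_mul_left h8 (by omega)
  have h8 : q ^ 6 ≤ i ^ 5 := by
    calc q ^ 6 ≤ q ^ 10 := Nat.pow_le_pow_right (by omega) (by norm_num)
      _ = (q ^ 2) ^ 5 := by ring
      _ ≤ i ^ 5 := Nat.pow_le_pow_left h7 5
  omega

theorem card_le_of_bot (hF : Fintype.card F = q ^ 2) {u : Fin 4 → F} (hu0 : u ≠ 0) (hu : hermForm 4 F q u u = 0)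
    {A : Subgroup (PSU 4 F q)} (hA : A ⊓ RR hF u hu = ⊥) :
    Nat.card (A ⊓ QQ hF u hu : Subgroup (PSU 4 F q)) ≤ q ^ 2 := by
  have hq := two_le hF
  have hcon : ¬ RR hF u hu ≤ A := by
    intro h
    rw [inf_eq_right.2 h] at hA
    have h1 := card_RR hF (n := 4) (by norm_num) hu0 hu
    rw [hA, Subgroup.card_bot] at h1
    omega
  have h1 := heis hF hu0 hu hcon
  rw [hA, Subgroup.card_bot, one_pow, mul_one] at h1
  set d := Nat.card (A ⊓ QQ hF u hu : Subgroup (PSU 4 F q))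
  have h4 : d ^ 2 * q ≤ (q ^ 2) ^ 2 * q := by
    calc _ ≤ q ^ 5 := h1
      _ = _ := by ring
  exact (Nat.pow_le_pow_iff_left two_ne_zero).1 (Nat.le_of_mul_le_mul_right h4 (by omega))

/-! ### class sizes -/

omit [Finite (PSU 4 F q)] in
theorem cen_index_le {T : Type*} [Group T] [Finite T] (t : T) {S : Set T} (h : ∀ k : T, k * t * k⁻¹ ∈ S) :
    (centralizer ({t} : Set T)).index ≤ S.ncard := by
  have h1 : Nat.card (T ⧸ centralizer ({t} : Set T)) ≤ Nat.card S := by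
    refine Nat.card_le_card_of_injective (fun c : T ⧸ centralizer ({t} : Set T) => (⟨c.out * t * c.out⁻¹, h _⟩ : S)) ?_
    intro a b hab
    have h2 : a.out * t * a.out⁻¹ = b.out * t * b.out⁻¹ := congrArg Subtype.val hab
    rw [← QuotientGroup.out_eq' a, ← QuotientGroup.out_eq' b, QuotientGroup.eq, mem_centralizer_iff]
    intro y hy
    rw [Set.mem_singleton_iff] at hy
    rw [hy]
    calc t * (a.out⁻¹ * b.out) = a.out⁻¹ * (a.out * t * a.out⁻¹) * b.out := by group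
      _ = a.out⁻¹ * (b.out * t * b.out⁻¹) * b.out := by rw [h2]
      _ = _ := by group
  exact h1

theorem index_RR (hF : Fintype.card F = q ^ 2) {u : Fin 4 → F} (hu0 : u ≠ 0) (hu : hermForm 4 F q u u = 0)
    {x : PSU 4 F q} (hx : x ∈ RR hF u hu) (hx1 : x ≠ 1) :
    (centralizer ({x} : Set (PSU 4 F q))).index ≤ (q ^ 2 + 1) * (q ^ 3 + 1) * (q - 1) := by
  classical
  have hfZ : Finite (ZZ hF 4) := inferInstance
  have := Fintype.ofFinite (ZZ hF 4)
  have h1 := cen_index_le x (S := {y | ∃ Z ∈ ZZ hF 4, y ∈ Z ∧ y ≠ 1}) (by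
    intro k
    refine ⟨(RR hF u hu).map (MulAut.conj k).toMonoidHom, ZZ_map hF (by norm_num) (MulAut.conj k) _ ⟨u, hu0, hu, rfl⟩,
      ⟨x, hx, rfl⟩, ?_⟩
    intro h
    apply hx1
    have h2 : x = k⁻¹ * (k * x * k⁻¹) * k := by group
    rw [h2, h]
    group)
  refine h1.trans ?_
  have h2 : ({y | ∃ Z ∈ ZZ hF 4, y ∈ Z ∧ y ≠ 1} : Set (PSU 4 F q)).ncard ≤
      Nat.card (Σ Z : ZZ hF 4, {y : PSU 4 F q // y ∈ Z.1 ∧ y ≠ 1}) := by
    rw [← Nat.card_coe_set_eq]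
    refine Nat.card_le_card_of_surjective
      (fun p : Σ Z : ZZ hF 4, {y : PSU 4 F q // y ∈ Z.1 ∧ y ≠ 1} =>
        (⟨p.2.1, p.1.1, p.1.2, p.2.2⟩ : {y | ∃ Z ∈ ZZ hF 4, y ∈ Z ∧ y ≠ 1})) ?_
    rintro ⟨y, Z, hZ, hy⟩
    exact ⟨⟨⟨Z, hZ⟩, ⟨y, hy⟩⟩, rfl⟩
  refine h2.trans ?_
  rw [Nat.card_sigma]
  have h3 : ∀ Z : ZZ hF 4, Nat.card {y : PSU 4 F q // y ∈ Z.1 ∧ y ≠ 1} = q - 1 := by
    intro Z
    have h4 : Nat.card {y : PSU 4 F q // y ∈ Z.1 ∧ y ≠ 1} = ((Z.1 : Set (PSU 4 F q)) \ {1}).ncard := rfl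
    rw [h4, Set.ncard_sdiff_singleton_of_mem (one_mem Z.1)]
    have h5 : (Z.1 : Set (PSU 4 F q)).ncard = q := ZZ_card_eq hF (by norm_num) Z.1 Z.2
    rw [h5]
  rw [Finset.sum_congr rfl (fun Z _ => h3 Z), Finset.sum_const, Finset.card_univ, smul_eq_mul,
    ← Nat.card_eq_fintype_card, card_ZZ4]

omit [Finite (PSU 4 F q)] [Fintype F] in
theorem num1 (hq : 2 ≤ q) : (q ^ 2 + 1) * (q ^ 3 + 1) * (q - 1) < q ^ 6 := by
  obtain ⟨r, rfl⟩ : ∃ r, q = r + 2 := ⟨q - 2, by omega⟩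
  have : r + 2 - 1 = r + 1 := by omega
  rw [this]
  ring_nf
  omega

theorem index_RR_lt (hF : Fintype.card F = q ^ 2) {u : Fin 4 → F} (hu0 : u ≠ 0) (hu : hermForm 4 F q u u = 0)
    {x : PSU 4 F q} (hx : x ∈ RR hF u hu) (hx1 : x ≠ 1) :
    (centralizer ({x} : Set (PSU 4 F q))).index < q ^ 6 :=
  (index_RR hF hu0 hu hx hx1).trans_lt (num1 (two_le hF))

/-- the unipotent group of a root group -/
noncomputable def QZ (hF : Fintype.card F = q ^ 2) (Z : ZZ hF 4) : Subgroup (PSU 4 F q) :=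
  QQ hF Z.2.choose Z.2.choose_spec.choose_spec.choose

omit [Finite (PSU 4 F q)] in
theorem QZ_eq (hF : Fintype.card F = q ^ 2) (Z : ZZ hF 4) {u : Fin 4 → F} (hu0 : u ≠ 0)
    (hu : hermForm 4 F q u u = 0) (h : Z.1 = RR hF u hu) : QZ hF Z = QQ hF u hu := by
  have h1 := Z.2.choose_spec.choose_spec.choose_spec
  exact QQ_of_RR hF (by norm_num) hu0 Z.2.choose_spec.choose hu Z.2.choose_spec.choose_spec.choose (h.symm.trans h1)

omit [Finite (PSU 4 F q)] in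
theorem siegel_swap (hF : Fintype.card F = q ^ 2) {e w : Fin 4 → F} (h : IsSiegel q e w 0)
    (h' : IsSiegel q w (-e) 0) : siegel hF e w 0 h = siegel hF w (-e) 0 h' := by
  apply ext_act
  intro u
  rw [act_siegel, act_siegel, herm_neg_right hF]
  simp only [zero_mul, zero_sub, neg_neg, smul_neg, neg_smul]
  abel

omit [Finite (PSU 4 F q)] in
theorem swap_is (hF : Fintype.card F = q ^ 2) {e w : Fin 4 → F} (h : IsSiegel q e w 0) : IsSiegel q w (-e) 0 := by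
  have h1 := h.tr
  rw [zero_pow_q hF, zero_add, zero_add] at h1
  refine ⟨h1, ?_, ?_⟩
  · rw [herm_neg_left, h.orth' hF, neg_zero]
  · rw [zero_pow_q hF, herm_neg_left, herm_neg_right hF, h.iso]
    ring

theorem index_siegel (hF : Fintype.card F = q ^ 2) {e w : Fin 4 → F} (h : IsSiegel q e w 0)
    (hli : LinearIndependent F ![e, w]) :
    2 * (centralizer ({pr 4 F q (siegel hF e w 0 h)} : Set (PSU 4 F q))).index ≤ (q ^ 2 + 1) * (q ^ 3 + 1) * q ^ 5 := by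
  classical
  have := Fintype.ofFinite (ZZ hF 4)
  have he0 : e ≠ 0 := hli.ne_zero 0
  have hw0 : w ≠ 0 := hli.ne_zero 1
  have hww : hermForm 4 F q w w = 0 := (swap_is hF h).iso
  set t := pr 4 F q (siegel hF e w 0 h) with ht
  choose g hg using (pr_surjective (n := 4) (F := F) (q := q))
  let C := centralizer ({t} : Set (PSU 4 F q))
  let a : (PSU 4 F q ⧸ C) → PSU 4 F q := fun c => c.out
  have hgi : ∀ k (v : Fin 4 → F), hermForm 4 F q v v = 0 → hermForm 4 F q (act (g k) v) (act (g k) v) = 0 :=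
    fun k v hv => by rw [herm_act]; exact hv
  have hg0 : ∀ k (v : Fin 4 → F), v ≠ 0 → act (g k) v ≠ 0 := fun k v hv h => hv ((act_eq_zero _).1 h)
  have hte : t ∈ QQ hF e h.iso := mem_QQ.2 ⟨_, _, _, rfl⟩
  have htw : t ∈ QQ hF w hww := mem_QQ.2 ⟨_, _, swap_is hF h, by rw [ht, siegel_swap hF h (swap_is hF h)]⟩
  have hQ : ∀ k (v : Fin 4 → F) (hv : hermForm 4 F q v v = 0), t ∈ QQ hF v hv →
      k * t * k⁻¹ ∈ QQ hF (act (g k) v) (hgi k v hv) := by
    intro k v hv htv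
    rw [← QQ_map_conj hF hv (g k) (hgi k v hv), hg]
    exact ⟨t, htv, rfl⟩
  let Zf : Bool → PSU 4 F q → ZZ hF 4 := fun b k => match b with
    | true => ⟨RR hF (act (g k) e) (hgi k e h.iso), RR_mem_ZZ hF (hg0 k e he0) _⟩
    | false => ⟨RR hF (act (g k) w) (hgi k w hww), RR_mem_ZZ hF (hg0 k w hw0) _⟩
  have hZf : ∀ b k, k * t * k⁻¹ ∈ QZ hF (Zf b k) := by
    intro b k
    cases b
    · rw [QZ_eq hF (Zf false k) (hg0 k w hw0) (hgi k w hww) rfl]
      exact hQ k w hww htw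
    · rw [QZ_eq hF (Zf true k) (hg0 k e he0) (hgi k e h.iso) rfl]
      exact hQ k e h.iso hte
  let φ : (PSU 4 F q ⧸ C) × Bool → {p : ZZ hF 4 × PSU 4 F q // p.2 ∈ QZ hF p.1} := fun p =>
    ⟨(Zf p.2 (a p.1), a p.1 * t * (a p.1)⁻¹), hZf _ _⟩
  have hφ : Function.Injective φ := by
    rintro ⟨c, b⟩ ⟨c', b'⟩ hcc
    have h1 : a c * t * (a c)⁻¹ = a c' * t * (a c')⁻¹ := congrArg (fun p => p.1.2) hcc
    have h2 : Zf b (a c) = Zf b' (a c') := congrArg (fun p => p.1.1) hcc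
    have h3 : c = c' := by
      rw [← QuotientGroup.out_eq' c, ← QuotientGroup.out_eq' c', QuotientGroup.eq, mem_centralizer_iff]
      intro y hy
      rw [Set.mem_singleton_iff] at hy
      rw [hy]
      show t * ((a c)⁻¹ * a c') = (a c)⁻¹ * a c' * t
      calc t * ((a c)⁻¹ * a c') = (a c)⁻¹ * (a c * t * (a c)⁻¹) * a c' := by group
        _ = (a c)⁻¹ * (a c' * t * (a c')⁻¹) * a c' := by rw [h1]
        _ = _ := by group
    subst h3
    have hne : ∀ k, Zf true k ≠ Zf false k := by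
      intro k hk
      have h4 : RR hF (act (g k) e) (hgi k e h.iso) = RR hF (act (g k) w) (hgi k w hww) := congrArg Subtype.val hk
      obtain ⟨x, hx, h5⟩ := (RR_eq_iff hF (by norm_num) (hg0 k e he0) (hg0 k w hw0) (hgi k e h.iso) (hgi k w hww)).1 h4
      have h6 : w = x • e := by
        apply act_injective (g k)
        rw [act_smul]
        exact h5
      rw [LinearIndependent.pair_iff] at hli
      have h7 := hli x (-1) (by rw [h6]; simp)
      exact one_ne_zero (neg_eq_zero.1 h7.2)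
    cases b <;> cases b'
    · rfl
    · exact absurd h2.symm (hne _)
    · exact absurd h2 (hne _)
    · rfl
  have h1 := Nat.card_le_card_of_injective φ hφ
  rw [Nat.card_prod] at h1
  have h2 : Nat.card {p : ZZ hF 4 × PSU 4 F q // p.2 ∈ QZ hF p.1} = (q ^ 2 + 1) * (q ^ 3 + 1) * q ^ 5 := by
    have e1 : {p : ZZ hF 4 × PSU 4 F q // p.2 ∈ QZ hF p.1} ≃ Σ Z : ZZ hF 4, QZ hF Z :=
      { toFun := fun p => ⟨p.1.1, ⟨p.1.2, p.2⟩⟩
        invFun := fun s => ⟨(s.1, s.2.1), s.2.2⟩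
        left_inv := fun p => rfl
        right_inv := fun s => rfl }
    rw [Nat.card_congr e1, Nat.card_sigma]
    have h3 : ∀ Z : ZZ hF 4, Nat.card (QZ hF Z) = q ^ 5 := fun Z =>
      card_QQ hF Z.2.choose_spec.choose Z.2.choose_spec.choose_spec.choose
    rw [Finset.sum_congr rfl (fun Z _ => h3 Z), Finset.sum_const, Finset.card_univ, smul_eq_mul,
      ← Nat.card_eq_fintype_card, card_ZZ4]
  rw [h2] at h1
  have h3 : Nat.card Bool = 2 := by simp
  rw [h3, mul_comm] at h1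
  exact h1

omit [Finite (PSU 4 F q)] [Fintype F] in
theorem num2 (hq : 2 ≤ q) {N : ℕ} (h : 2 * N ≤ (q ^ 2 + 1) * (q ^ 3 + 1) * q ^ 5) : N < (q ^ 2) ^ 5 := by
  have h1 : (q ^ 2 + 1) * (q ^ 3 + 1) < 2 * q ^ 5 := by
    have h2 : q ^ 3 + q ^ 2 + 1 < q ^ 5 := by
      obtain ⟨r, rfl⟩ : ∃ r, q = r + 2 := ⟨q - 2, by omega⟩
      ring_nf
      omega
    calc (q ^ 2 + 1) * (q ^ 3 + 1) = q ^ 5 + (q ^ 3 + q ^ 2 + 1) := by ring
      _ < q ^ 5 + q ^ 5 := by omega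
      _ = _ := by ring
  have h2 : 2 * N < 2 * (q ^ 2) ^ 5 := by
    calc 2 * N ≤ (q ^ 2 + 1) * (q ^ 3 + 1) * q ^ 5 := h
      _ < (2 * q ^ 5) * q ^ 5 := Nat.mul_lt_mul_of_pos_right h1 (by positivity)
      _ = _ := by ring
  omega

end Cfsg.Agent.H361.IFU4
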