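import Cfsg.Agent.H361.IFU.FourA
import Cfsg.Agent.H715.IFU.Inv
import Cfsg.Agent.H77.Act
import Cfsg.Agent.H999.IF.EngB
import Cfsg.Agent.H809.IF.EngC
import Cfsg.Agent.H680.IF.EngA
import Cfsg.Agent.H209.IF.Kill

/-!
# S5719: the cell `PSU_4(q)`, `q` even (helper361)
-/

set_option autoImplicit false
set_option linter.unusedSectionVars false

namespace Cfsg.Agent.H361.IFU4

open Cfsg Subgroup Cfsg.Agent.LieClassical.HermBasic Cfsg.Agent.LieClassical.HermSiegel
  Cfsg.Agent.LieClassical.HermGen Cfsg.Agent.ClassicalGeometry.PSUAutBasic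
  Cfsg.Agent.ClassicalGeometry.PSUAutSylow Cfsg.Agent.ClassicalGeometry.PSUAutUnip Cfsg.Agent.H667.TwoPSUModel
  Cfsg.Agent.H77.Heis Cfsg.Agent.H209.Fxy
open Cfsg.Agent.H77.Geom (perp mem_perp_singleton mem_perp_pair card_perp card_perp_one card_submodule exists_perp_ne
  linInd_pair range_pair)
open scoped commutatorElement

variable {F : Type*} [Field F] [Fintype F] {q : ℕ}

theorem sq_RR (hF : Fintype.card F = q ^ 2) (h2 : (2 : F) = 0) {u : Fin 4 → F} {hu : hermForm 4 F q u u = 0}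
    {x : PSU 4 F q} (hx : x ∈ RR hF u hu) : x * x = 1 := by
  obtain ⟨μ, hμ, rfl⟩ := mem_RR.1 hx
  rw [← map_mul, transv_mul hF hu hμ hμ]
  have h3 : transv hF u hu (μ + μ) (by rw [add_pow_q hF]; linear_combination hμ + hμ) = 1 := by
    apply ext_act
    intro v
    rw [act_transv, act_one, ← two_mul, h2, zero_mul, zero_mul, zero_smul, add_zero]
  rw [h3, map_one]

theorem order_RR (hF : Fintype.card F = q ^ 2) (h2 : (2 : F) = 0) {u : Fin 4 → F} {hu : hermForm 4 F q u u = 0}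
    {x : PSU 4 F q} (hx : x ∈ RR hF u hu) (hx1 : x ≠ 1) : orderOf x = 2 :=
  orderOf_eq_prime (by rw [pow_two]; exact sq_RR hF h2 hx) hx1

theorem exists_RR_ne (hF : Fintype.card F = q ^ 2) {u : Fin 4 → F} (hu0 : u ≠ 0) (hu : hermForm 4 F q u u = 0) :
    ∃ x ∈ RR hF u hu, x ≠ 1 := by
  by_contra hcon
  push Not at hcon
  have h1 : RR hF u hu = ⊥ := (Subgroup.eq_bot_iff_forall _).2 hcon
  have h2 := card_RR hF (n := 4) (by norm_num) hu0 hu
  rw [h1, Subgroup.card_bot] at h2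
  have := two_le hF
  omega

theorem card_inf_mul_relIndex {T : Type*} [Group T] (A B : Subgroup T) :
    Nat.card (A ⊓ B : Subgroup T) * A.relIndex B = Nat.card B := by
  rw [← card_subgroupOf, Subgroup.relIndex, Subgroup.card_mul_index]

theorem lift_inv (hF : Fintype.card F = q ^ 2) (h2 : (2 : F) = 0) {t : PSU 4 F q} (ht : orderOf t = 2) :
    ∃ g : SU 4 F q, g * g = 1 ∧ g ≠ 1 ∧ pr 4 F q g = t := by
  have : CharP F 2 := CharTwo.of_one_ne_zero_of_two_eq_zero one_ne_zero h2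
  have : Fact (Nat.Prime 2) := ⟨Nat.prime_two⟩
  have h3 : t ^ 2 ^ 1 = 1 := by
    have := pow_orderOf_eq_one t
    rwa [ht] at this
  obtain ⟨a, rfl, l, hl⟩ := exists_lift hF (by norm_num) h3
  refine ⟨a, ?_, ?_, rfl⟩
  · have h4 : (a * a) ^ 2 ^ l = 1 := by rw [← pow_two, ← pow_mul, mul_comm, pow_mul, hl, one_pow]
    refine eq_of_pr_eq hF (by norm_num) (p := 2) (l := 0) h4 (one_pow _) ?_
    rw [map_mul, map_one, ← pow_two]
    simpa using h3
  · rintro rfl
    rw [map_one, orderOf_one] at ht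
    omega

variable [Finite (PSU 4 F q)]

theorem nonab (hF : Fintype.card F = q ^ 2) : ∃ a b : PSU 4 F q, a * b ≠ b * a := by
  obtain ⟨e, f, H⟩ := exists_frame (F := F) (q := q) hF (n := 4) (by norm_num)
  have he0 : e ≠ 0 := by
    intro h
    have := H.ef
    rw [h, herm_zero_left] at this
    exact zero_ne_one this
  obtain ⟨z, hz, hz1⟩ := exists_RR_ne hF he0 H.ee
  obtain ⟨x, hx, hxR⟩ : ∃ x ∈ QQ hF e H.ee, x ∉ RR hF e H.ee := by
    by_contra hcon
    push Not at hcon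
    have h3 := Subgroup.card_le_of_le (show QQ hF e H.ee ≤ RR hF e H.ee from hcon)
    rw [card_QQ hF he0, card_RR hF (by norm_num) he0] at h3
    have h4 := two_le hF
    have h5 : q ^ 1 < q ^ 5 := Nat.pow_lt_pow_right (by omega) (by norm_num)
    rw [pow_one] at h5
    omega
  obtain ⟨v, hv, h⟩ := QQ_surj hF he0 H.ee x hx hxR z hz
  refine ⟨x, v, fun hc => hz1 ?_⟩
  rw [← h, commutatorElement_eq_one_iff_mul_comm]
  exact hc

theorem card_C (hF : Fintype.card F = q ^ 2) {u : Fin 4 → F} (hu0 : u ≠ 0) (hu : hermForm 4 F q u u = 0)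
    {t : PSU 4 F q} (ht : t ∈ QQ hF u hu) :
    q ^ 4 ≤ Nat.card (centralizer ({t} : Set (PSU 4 F q)) ⊓ QQ hF u hu : Subgroup (PSU 4 F q)) := by
  have hq := two_le hF
  have h1 : (centralizer ({t} : Set (PSU 4 F q))).relIndex (QQ hF u hu) ≤ q := by
    refine le_of_le_of_eq ?_ (card_RR hF (n := 4) (by norm_num) hu0 hu)
    rw [Subgroup.relIndex]
    refine H77.Heis.index_le _ (fun x : QQ hF u hu =>
      (⟨⁅(x : PSU 4 F q), t⁆, QQ_comm hF hu _ x.2 _ ht⟩ : RR hF u hu)) ?_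
    intro x y hxy
    have h : ⁅(x : PSU 4 F q), t⁆ = ⁅(y : PSU 4 F q), t⁆ := congrArg Subtype.val hxy
    rw [commutatorElement_def, commutatorElement_def] at h
    have h' : (x : PSU 4 F q) * t * (x : PSU 4 F q)⁻¹ = y * t * (y : PSU 4 F q)⁻¹ := mul_right_cancel h
    rw [mem_subgroupOf, mem_centralizer_singleton_iff]
    show (x : PSU 4 F q)⁻¹ * y * t = t * ((x : PSU 4 F q)⁻¹ * y)
    calc (x : PSU 4 F q)⁻¹ * y * t = (x : PSU 4 F q)⁻¹ * (y * t * (y : PSU 4 F q)⁻¹) * y := by group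
      _ = (x : PSU 4 F q)⁻¹ * (x * t * (x : PSU 4 F q)⁻¹) * y := by rw [h']
      _ = _ := by group
  have h2 := card_inf_mul_relIndex (centralizer ({t} : Set (PSU 4 F q))) (QQ hF u hu)
  rw [card_QQ hF hu0 hu] at h2
  have h3 : q ^ 4 * q ≤ Nat.card (centralizer ({t} : Set (PSU 4 F q)) ⊓ QQ hF u hu : Subgroup (PSU 4 F q)) * q := by
    calc q ^ 4 * q = q ^ 5 := by ring
      _ = _ := h2.symm
      _ ≤ _ := Nat.mul_le_mul_left _ h1
  exact Nat.le_of_mul_le_mul_right h3 (by omega)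

variable [IsSimpleGroup (PSU 4 F q)] {A : Subgroup (PSU 4 F q)} {Γ : Subgroup (MulAut (PSU 4 F q))}

theorem inf_ne_bot (hF : Fintype.card F = q ^ 2) (h : IF A Γ) {e w : Fin 4 → F} (hs : IsSiegel q e w 0)
    (hli : LinearIndependent F ![e, w]) (htA : pr 4 F q (siegel hF e w 0 hs) ∈ A)
    (ho : orderOf (pr 4 F q (siegel hF e w 0 hs)) = 2) : A ⊓ RR hF e hs.iso ≠ ⊥ := by
  intro hbot
  have he0 : e ≠ 0 := hli.ne_zero 0
  have hq := two_le hF
  have h1 := card_le_of_bot hF he0 hs.iso hbot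
  have h0 := index_siegel hF hs hli
  set t := pr 4 F q (siegel hF e w 0 hs) with ht
  have htQ : t ∈ QQ hF e hs.iso := mem_QQ.2 ⟨_, _, _, rfl⟩
  have h2 := card_C hF he0 hs.iso htQ
  set C : Subgroup (PSU 4 F q) := centralizer ({t} : Set (PSU 4 F q)) ⊓ QQ hF e hs.iso with hC
  have h3 := ((H999.IFB.IF.E2' h (nonab hF) htA ho).2.2.2.2 C inf_le_left).1
  have h4 : A.relIndex C ^ 5 < (q ^ 2) ^ 5 := h3.trans (num2 hq h0)
  have h5 : A.relIndex C < q ^ 2 := lt_of_pow_lt_pow_left₀ 5 (Nat.zero_le _) h4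
  have h6 := card_inf_mul_relIndex A C
  have h7 : Nat.card (A ⊓ C : Subgroup (PSU 4 F q)) ≤ Nat.card (A ⊓ QQ hF e hs.iso : Subgroup (PSU 4 F q)) :=
    Subgroup.card_le_of_le (inf_le_inf_left _ inf_le_right)
  have h8 : q ^ 4 ≤ q ^ 2 * A.relIndex C := by
    calc q ^ 4 ≤ Nat.card C := h2
      _ = _ := h6.symm
      _ ≤ _ := Nat.mul_le_mul_right _ (h7.trans h1)
  have h9 : q ^ 2 * A.relIndex C < q ^ 2 * q ^ 2 := Nat.mul_lt_mul_of_pos_left h5 (by positivity)
  have h10 : q ^ 2 * q ^ 2 = q ^ 4 := by ring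
  omega

theorem RR_le_of_ne_bot (hF : Fintype.card F = q ^ 2) (h2 : (2 : F) = 0) (h : IF A Γ) {u : Fin 4 → F} (hu0 : u ≠ 0)
    (hu : hermForm 4 F q u u = 0) (hne : A ⊓ RR hF u hu ≠ ⊥) : RR hF u hu ≤ A := by
  obtain ⟨x, ⟨hxA, hxR⟩, hx1⟩ : ∃ x ∈ A ⊓ RR hF u hu, x ≠ 1 := by
    by_contra hcon
    push Not at hcon
    exact hne ((Subgroup.eq_bot_iff_forall _).2 hcon)
  have hQ : QQ hF u hu ≤ centralizer ({x} : Set (PSU 4 F q)) := fun v hv =>
    mem_centralizer_singleton_iff.2 (QQ_cen hF hu x hxR v hv)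
  have h3 := ((H999.IFB.IF.E2' h (nonab hF) hxA (order_RR hF h2 hxR hx1)).2.2.2.2 _ hQ).1
  exact RR_le_of hF hu0 hu (h3.trans (index_RR_lt hF hu0 hu hxR hx1))

omit [Finite (PSU 4 F q)] [IsSimpleGroup (PSU 4 F q)] in
theorem card_line (hF : Fintype.card F = q ^ 2) {u : Fin 4 → F} (hu0 : u ≠ 0) :
    Nat.card (Submodule.span F {u}) = q ^ 2 := by
  rw [card_submodule hF, finrank_span_singleton hu0]

omit [Finite (PSU 4 F q)] [IsSimpleGroup (PSU 4 F q)] in
theorem exists_perp_iso (hF : Fintype.card F = q ^ 2) {u : Fin 4 → F} (hu0 : u ≠ 0) (hu : hermForm 4 F q u u = 0) :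
    ∃ w, w ∉ Submodule.span F {u} ∧ hermForm 4 F q w w = 0 ∧ hermForm 4 F q w u = 0 := by
  have hq := two_le hF
  obtain ⟨w, hw, hw', hww⟩ := H77.CW.exists_isotropic_not_mem hF (perp q {u}).toAddSubgroup
    (Submodule.span F {u}).toAddSubgroup (by
      intro x hx
      obtain ⟨c, rfl⟩ := Submodule.mem_span_singleton.1 hx
      exact mem_perp_singleton.2 (by rw [herm_smul_left, hu, mul_zero])) (by
      have h1 : Nat.card (Submodule.span F {u}).toAddSubgroup = q ^ 2 := card_line hF hu0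
      have h2 : Nat.card (perp q {u}).toAddSubgroup = q ^ (2 * (4 - 1)) := card_perp_one hF hu0
      rw [h1, h2, ← pow_add]
      exact Nat.pow_lt_pow_right (by omega) (by norm_num))
  exact ⟨w, hw', hww, mem_perp_singleton.1 hw⟩

omit [Finite (PSU 4 F q)] [IsSimpleGroup (PSU 4 F q)] in
theorem exists_perp2_iso (hF : Fintype.card F = q ^ 2) {u v : Fin 4 → F} (hu0 : u ≠ 0)
    (hv : v ∉ Submodule.span F {u}) :
    ∃ w, w ≠ 0 ∧ hermForm 4 F q w w = 0 ∧ hermForm 4 F q w u = 0 ∧ hermForm 4 F q w v = 0 := by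
  have hq := two_le hF
  obtain ⟨w, hw, hw0, hww⟩ := H77.CW.exists_isotropic hF (perp q {u, v}).toAddSubgroup (by
      have h2 : Nat.card (perp q {u, v}).toAddSubgroup = q ^ (2 * (4 - 2)) := by
        have := card_perp (q := q) hF (linInd_pair hu0 hv)
        rwa [range_pair] at this
      rw [h2]
      exact Nat.pow_lt_pow_right (by omega) (by norm_num))
  obtain ⟨h1, h2⟩ := mem_perp_pair.1 hw
  exact ⟨w, hw0, hww, h1, h2⟩

theorem second (hF : Fintype.card F = q ^ 2) (h : IF A Γ) {u : Fin 4 → F} (hu0 : u ≠ 0)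
    (hu : hermForm 4 F q u u = 0) (hR : RR hF u hu ≤ A) :
    ∃ (v : Fin 4 → F) (hv : hermForm 4 F q v v = 0), v ∉ Submodule.span F {u} ∧ RR hF v hv ≤ A := by
  by_contra hcon
  have huniq : ∀ (v : Fin 4 → F) (hv : hermForm 4 F q v v = 0), RR hF v hv ≤ A → v ∈ Submodule.span F {u} := by
    intro v hv hRv
    by_contra hn
    exact hcon ⟨v, hv, hn, hRv⟩
  have hRR : ∀ Z ∈ ZZ hF 4, Z ≤ A → Z = RR hF u hu := by
    rintro _ ⟨v, hv0, hv, rfl⟩ hle
    obtain ⟨c, hc⟩ := Submodule.mem_span_singleton.1 (huniq v hv hle)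
    refine ((RR_eq_iff hF (by norm_num) hu0 hv0 hu hv).2 ⟨c, ?_, hc.symm⟩).symm
    rintro rfl
    rw [zero_smul] at hc
    exact hv0 hc.symm
  obtain ⟨w, hw, hww, hwu⟩ := exists_perp_iso hF hu0 hu
  have hw0 : w ≠ 0 := by
    rintro rfl
    exact hw (Submodule.zero_mem _)
  apply hw
  apply huniq w hww
  intro x hx
  obtain ⟨z, hz, hz1⟩ := exists_RR_ne hF hu0 hu
  refine H680.Fxy.IF.norm h hR (fun σ hσ k hk => ?_) (fun hb => ?_) (fun k hk => ?_)
  · have h1 : (RR hF u hu).map (σ : PSU 4 F q →* PSU 4 F q) = RR hF u hu :=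
      hRR _ (ZZ_map hF (by norm_num) σ _ (RR_mem_ZZ hF hu0 hu)) (by
        rintro _ ⟨y, hy, rfl⟩
        exact (h.inv σ hσ y).2 (hR hy))
    rw [← h1]
    exact ⟨k, hk, rfl⟩
  · rw [hb] at hz
    exact hz1 (mem_bot.1 hz)
  · have h1 := (RR_commute_iff hF (by norm_num) hu0 hw0 hu hww).2 (herm_eq_zero_swap hF hwu) k hk x hx
    rw [← h1, mul_inv_cancel_right]
    exact hk

theorem orth_of (hF : Fintype.card F = q ^ 2) (h2 : (2 : F) = 0) (h : IF A Γ) {e v : Fin 4 → F} (he0 : e ≠ 0)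
    (he : hermForm 4 F q e e = 0) (hv : hermForm 4 F q v v = 0) (hve : hermForm 4 F q v e ≠ 0)
    (hRe : RR hF e he ≤ A) (hRv : RR hF v hv ≤ A) :
    ∃ (v' : Fin 4 → F) (hv' : hermForm 4 F q v' v' = 0), v' ∉ Submodule.span F {v} ∧ hermForm 4 F q v' v = 0 ∧
      RR hF v' hv' ≤ A := by
  have hq := two_le hF
  obtain ⟨z, hz, hz1⟩ := exists_RR_ne hF he0 he
  have hQ : QQ hF e he ≤ centralizer ({z} : Set (PSU 4 F q)) := fun v hv =>
    mem_centralizer_singleton_iff.2 (QQ_cen hF he z hz v hv)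
  have h3 := (((H999.IFB.IF.E2' h (nonab hF) (hRe hz) (order_RR hF h2 hz hz1)).2.2.2.2 _ hQ).1).trans
    (index_RR_lt hF he0 he hz hz1)
  let f : HP hF e he →* PSU 4 F q := (pr 4 F q).comp (rho hF e he)
  let K : Subgroup (HP hF e he) := A.comap f
  have hfr : f.range = QQ hF e he := by
    ext x
    constructor
    · rintro ⟨y, rfl⟩
      exact mem_QQ.2 ⟨_, _, y.sg, rfl⟩
    · intro hx
      obtain ⟨w, μ, hs, rfl⟩ := mem_QQ.1 hx
      exact ⟨HP.mk hF he w μ hs, rfl⟩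
  have hKi : K.index = A.relIndex (QQ hF e he) := by
    rw [← hfr]
    exact Subgroup.index_comap A f
  have hi : K.index < q ^ 2 := by
    rw [hKi]
    refine lt_of_pow_lt_pow_left₀ 5 (Nat.zero_le _) (h3.trans ?_)
    rw [← pow_mul]
    exact Nat.pow_lt_pow_right (by omega) (by norm_num)
  have hK1 := K.card_mul_index
  rw [card_eq K, H77.Act.card_HP he he0] at hK1
  have hcen : Nat.card (cen K) ≤ q := by
    have := AddSubgroup.card_le_of_le (cen_le K)
    rwa [card_T0] at this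
  have hprj : q ^ 4 < Nat.card (prj K) := by
    by_contra hcon
    push Not at hcon
    have h4 : Nat.card (prj K) * Nat.card (cen K) * K.index < q ^ (2 * (4 - 1)) * q := by
      calc Nat.card (prj K) * Nat.card (cen K) * K.index ≤ q ^ 4 * q * K.index :=
            Nat.mul_le_mul_right _ (Nat.mul_le_mul hcon hcen)
        _ < q ^ 4 * q * q ^ 2 := Nat.mul_lt_mul_of_pos_left hi (by positivity)
        _ = _ := by ring
    omega
  obtain ⟨w, ⟨x, hxK, hxw⟩, hwB, hww⟩ := H77.CW.exists_isotropic_not_mem hF (prj K)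
    (Submodule.span F {e}).toAddSubgroup (by
      intro y hy
      obtain ⟨c, rfl⟩ := Submodule.mem_span_singleton.1 hy
      obtain ⟨x, hx, hx1⟩ := H77.Step2.rho_line (hF := hF) he c
      refine ⟨x, ?_, hx⟩
      show pr 4 F q (rho hF e he x) ∈ A
      rw [hx1, map_one]
      exact A.one_mem) (by
      have h1 : Nat.card (Submodule.span F {e}).toAddSubgroup = q ^ 2 := card_line hF he0
      rw [h1, ← pow_add]
      exact hprj)
  subst hxw
  have hx0 : x.m + x.m ^ q = 0 := by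
    have := x.sg.tr
    rwa [hww, add_zero] at this
  have hwe : hermForm 4 F q x.w e = 0 := x.sg.orth
  -- all parameters
  have hall : ∀ (μ : F) (hs : IsSiegel q e x.w μ), pr 4 F q (siegel hF e x.w μ hs) ∈ A := by
    intro μ hs
    have hμ : (μ - x.m) + (μ - x.m) ^ q = 0 := by
      have := hs.tr
      rw [hww, add_zero] at this
      rw [sub_pow_q hF]
      linear_combination this - hx0
    have h4 : siegel hF e x.w μ hs = siegel hF e x.w x.m x.sg * transv hF e he (μ - x.m) hμ := by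
      rw [transv, siegel_mul]
      refine siegel_congr hF _ _ rfl (by rw [add_zero]) ?_
      rw [herm_zero_left]
      ring
    rw [h4, map_mul]
    exact A.mul_mem hxK (hRe (mem_RR.2 ⟨_, hμ, rfl⟩))
  set w := x.w with hw
  have hev : hermForm 4 F q e v ≠ 0 := fun h0 => hve (herm_eq_zero_swap hF h0)
  set a := hermForm 4 F q v e with ha
  set b := hermForm 4 F q v w with hb
  have hea : hermForm 4 F q e v = a ^ q := herm_swap hF v e
  have hwb : hermForm 4 F q w v = b ^ q := herm_swap hF v w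
  have haq : a ^ q ≠ 0 := pow_ne_zero _ hve
  have hμ : IsSiegel q e w (-(a * b ^ q - b * a ^ q) * (a * a ^ q)⁻¹) := by
    refine ⟨he, hwe, ?_⟩
    rw [hww, add_zero, mul_pow, neg_pow_q hF, sub_pow_q hF, inv_pow, norm_pow_q hF, mul_pow, mul_pow,
      pow_q_pow_q hF, pow_q_pow_q hF]
    ring
  set μ := -(a * b ^ q - b * a ^ q) * (a * a ^ q)⁻¹ with hμdef
  set g := siegel hF e w μ hμ with hg
  have hgv : act g v = v + a • w + (μ * a - b) • e := act_siegel hF hμ v
  have hvv' : hermForm 4 F q (act g v) (act g v) = 0 := by rw [herm_act]; exact hv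
  refine ⟨act g v, hvv', ?_, ?_, ?_⟩
  · intro hsp
    obtain ⟨c, hc⟩ := Submodule.mem_span_singleton.1 hsp
    have h5 : c = 1 := by
      have h6 : hermForm 4 F q (c • v) e = hermForm 4 F q (act g v) e := by rw [hc]
      rw [hgv, herm_smul_left, herm_add_left, herm_add_left, herm_smul_left, herm_smul_left, hwe, he, ← ha] at h6
      have h7 : (c - 1) * a = 0 := by linear_combination h6
      rcases mul_eq_zero.1 h7 with h8 | h8
      · exact sub_eq_zero.1 h8
      · exact absurd h8 hve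
    rw [h5, one_smul, hgv] at hc
    apply hwB
    refine Submodule.mem_span_singleton.2 ⟨-(a⁻¹ * (μ * a - b)), ?_⟩
    have h6 : a • w = -((μ * a - b) • e) := by
      have h7 : v + (a • w + (μ * a - b) • e) = v + 0 := by rw [add_zero, ← add_assoc]; exact hc.symm
      exact eq_neg_of_add_eq_zero_left (add_left_cancel h7)
    have h7 : w = a⁻¹ • (a • w) := (inv_smul_smul₀ hve w).symm
    rw [h7, h6, smul_neg, smul_smul, neg_smul]
  · rw [hgv, herm_add_left, herm_add_left, herm_smul_left, herm_smul_left, hv, hea, hwb, hμdef]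
    field_simp
    ring
  · rw [← RR_map_conj hF hv g hvv']
    rintro _ ⟨y, hy, rfl⟩
    exact A.mul_mem (A.mul_mem (hall μ hμ) (hRv hy)) (A.inv_mem (hall μ hμ))

end Cfsg.Agent.H361.IFU4
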