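import Cfsg.Agent.H361.IFU.FourB

/-!
# S5719: the cell `PSU_4(q)`, `q` even, end (helper361)
-/

set_option autoImplicit false
set_option linter.unusedSectionVars false

namespace Cfsg.Agent.H361.IFU4

open Cfsg Subgroup Cfsg.Agent.LieClassical.HermBasic Cfsg.Agent.LieClassical.HermSiegel
  Cfsg.Agent.LieClassical.HermGen Cfsg.Agent.ClassicalGeometry.PSUAutBasic
  Cfsg.Agent.ClassicalGeometry.PSUAutSylow Cfsg.Agent.ClassicalGeometry.PSUAutUnip Cfsg.Agent.H667.TwoPSUModel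
  Cfsg.Agent.H77.Heis Cfsg.Agent.H209.Fxy
open Cfsg.Agent.H77.Geom (perp mem_perp_singleton mem_perp_pair card_perp card_perp_one card_submodule exists_perp_ne
  linInd_pair range_pair)
open scoped commutatorElement

variable {F : Type*} [Field F] [Fintype F] {q : ℕ}

/-- the unipotent group of `v` moves `v'` to `v' + c v` -/
theorem exists_move (hF : Fintype.card F = q ^ 2) {v v' : Fin 4 → F} (hv : hermForm 4 F q v v = 0)
    (hn : v' ∉ Submodule.span F {v}) (horth : hermForm 4 F q v' v = 0) (c : F) :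
    ∃ (w : Fin 4 → F) (μ : F) (h : IsSiegel q v w μ), act (siegel hF v w μ h) v' = v' + c • v := by
  obtain ⟨y, hy, hyv⟩ := exists_perp_ne (q := q) hF hn
  have hy' : hermForm 4 F q y v = 0 := mem_perp_singleton.1 hy
  have ha : hermForm 4 F q v' y ≠ 0 := fun h0 => hyv (herm_eq_zero_swap hF h0)
  set a := hermForm 4 F q v' y with hadef
  have hw : hermForm 4 F q ((-c * a⁻¹) ^ q • y) v = 0 := by rw [herm_smul_left, hy', mul_zero]
  obtain ⟨μ, hμ⟩ := H77.Heis.exists_mu hF hv hw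
  refine ⟨_, μ, hμ, ?_⟩
  rw [act_siegel, horth, herm_smul_right, ← hadef, pow_q_pow_q hF, zero_smul, mul_zero, add_zero, zero_sub, mul_assoc,
    inv_mul_cancel₀ ha, mul_one, neg_neg]

variable [Finite (PSU 4 F q)] [IsSimpleGroup (PSU 4 F q)] {A : Subgroup (PSU 4 F q)}
  {Γ : Subgroup (MulAut (PSU 4 F q))}

omit [Finite (PSU 4 F q)] [IsSimpleGroup (PSU 4 F q)] in
theorem le_relIndex [Finite (PSU 4 F q)] (hF : Fintype.card F = q ^ 2) {v v' : Fin 4 → F} (hv : hermForm 4 F q v v = 0)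
    (hv' : hermForm 4 F q v' v' = 0) (hv0 : v ≠ 0) (hn : v' ∉ Submodule.span F {v})
    (horth : hermForm 4 F q v' v = 0) {s t : PSU 4 F q} (hs : s ∈ RR hF v' hv') (hs1 : s ≠ 1) (ht : t ∈ RR hF v hv) :
    q ^ 2 ≤ (centralizer ({s} : Set (PSU 4 F q))).relIndex (centralizer ({t} : Set (PSU 4 F q))) := by
  have hv'0 : v' ≠ 0 := by
    rintro rfl
    exact hn (Submodule.zero_mem _)
  have hQ : QQ hF v hv ≤ centralizer ({t} : Set (PSU 4 F q)) := fun x hx =>
    mem_centralizer_singleton_iff.2 (QQ_cen hF hv t ht x hx)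
  have hex : ∀ c : F, ∃ x ∈ QQ hF v hv, ∃ hi : hermForm 4 F q (v' + c • v) (v' + c • v) = 0,
      x * s * x⁻¹ ∈ RR hF (v' + c • v) hi := by
    intro c
    obtain ⟨w, μ, h, hg⟩ := exists_move hF hv hn horth c
    have hi : hermForm 4 F q (act (siegel hF v w μ h) v') (act (siegel hF v w μ h) v') = 0 := by rw [herm_act]; exact hv'
    have hi' : hermForm 4 F q (v' + c • v) (v' + c • v) = 0 := by rw [← hg]; exact hi
    refine ⟨pr 4 F q (siegel hF v w μ h), mem_QQ.2 ⟨_, _, _, rfl⟩, hi', ?_⟩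
    rw [← RR_congr hF hi hi' hg, ← RR_map_conj hF hv' (siegel hF v w μ h) hi]
    exact ⟨s, hs, rfl⟩
  choose x hxQ hi hx using hex
  rw [← hF, ← Nat.card_eq_fintype_card, Subgroup.relIndex, Subgroup.index]
  refine Nat.card_le_card_of_injective (fun c : F =>
    (QuotientGroup.mk (⟨x c, hQ (hxQ c)⟩ : centralizer ({t} : Set (PSU 4 F q))) :
      centralizer ({t} : Set (PSU 4 F q)) ⧸ (centralizer ({s} : Set (PSU 4 F q))).subgroupOf
        (centralizer ({t} : Set (PSU 4 F q))))) ?_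
  intro c d hcd
  have h1 := QuotientGroup.eq.1 hcd
  rw [mem_subgroupOf, mem_centralizer_singleton_iff] at h1
  have h2 : (x c)⁻¹ * x d * s = s * ((x c)⁻¹ * x d) := h1
  have h3 : x d * s * (x d)⁻¹ = x c * s * (x c)⁻¹ := by
    calc x d * s * (x d)⁻¹ = x c * ((x c)⁻¹ * x d * s) * (x d)⁻¹ := by group
      _ = x c * (s * ((x c)⁻¹ * x d)) * (x d)⁻¹ := by rw [h2]
      _ = _ := by group
  have hne : ∀ c : F, v' + c • v ≠ 0 := by
    intro c h0
    apply hn
    refine Submodule.mem_span_singleton.2 ⟨-c, ?_⟩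
    rw [neg_smul]
    exact (eq_neg_of_add_eq_zero_left h0).symm
  have h4 : RR hF (v' + c • v) (hi c) = RR hF (v' + d • v) (hi d) := by
    by_contra hcon
    have h5 := ZZ_int hF (by norm_num) _ (RR_mem_ZZ hF (hne c) (hi c)) _ (RR_mem_ZZ hF (hne d) (hi d)) hcon
    have h6 : x c * s * (x c)⁻¹ ∈ RR hF (v' + c • v) (hi c) ⊓ RR hF (v' + d • v) (hi d) :=
      ⟨hx c, by rw [← h3]; exact hx d⟩
    rw [h5, mem_bot] at h6
    apply hs1
    have h7 : s = (x c)⁻¹ * (x c * s * (x c)⁻¹) * x c := by group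
    rw [h7, h6]
    group
  obtain ⟨k, hk0, hk⟩ := (RR_eq_iff hF (by norm_num) (hne c) (hne d) (hi c) (hi d)).1 h4
  have h5 : (1 - k) • v' = (k * c - d) • v := by
    have : (1 - k) • v' - (k * c - d) • v = (v' + d • v) - k • (v' + c • v) := by module
    rw [← sub_eq_zero, this, hk, sub_self]
  have hk1 : k = 1 := by
    by_contra hk1
    have h6 : (1 - k) ≠ 0 := fun h => hk1 (sub_eq_zero.1 h).symm
    apply hn
    refine Submodule.mem_span_singleton.2 ⟨(1 - k)⁻¹ * (k * c - d), ?_⟩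
    rw [mul_smul, ← h5, smul_smul, inv_mul_cancel₀ h6, one_smul]
  rw [hk1, sub_self, zero_smul, one_mul] at h5
  rcases smul_eq_zero.1 h5.symm with h6 | h6
  · exact sub_eq_zero.1 h6
  · exact absurd h6 hv0

theorem fx_lt (hF : Fintype.card F = q ^ 2) (h2 : (2 : F) = 0) (h : IF A Γ) {v v' : Fin 4 → F}
    (hv : hermForm 4 F q v v = 0) (hv' : hermForm 4 F q v' v' = 0) (hv0 : v ≠ 0) (hn : v' ∉ Submodule.span F {v})
    (horth : hermForm 4 F q v' v = 0) (hR : RR hF v hv ≤ A) (hR' : RR hF v' hv' ≤ A) {t : PSU 4 F q}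
    (ht : t ∈ RR hF v hv) (ht1 : t ≠ 1) : fx A (MulAut.conj t) < q := by
  have hq := two_le hF
  have hv'0 : v' ≠ 0 := by
    rintro rfl
    exact hn (Submodule.zero_mem _)
  obtain ⟨s, hs, hs1⟩ := exists_RR_ne hF hv'0 hv'
  have hcomm : s * t = t * s := (RR_commute_iff hF (by norm_num) hv'0 hv0 hv' hv).2 horth s hs t ht
  have hst : s ≠ t := by
    rintro rfl
    have h4 : RR hF v hv ≠ RR hF v' hv' := by
      intro h4
      obtain ⟨k, hk0, hk⟩ := (RR_eq_iff hF (by norm_num) hv0 hv'0 hv hv').1 h4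
      exact hn (Submodule.mem_span_singleton.2 ⟨k, hk.symm⟩)
    have h5 := ZZ_int hF (by norm_num) _ (RR_mem_ZZ hF hv0 hv) _ (RR_mem_ZZ hF hv'0 hv') h4
    have h6 : s ∈ RR hF v hv ⊓ RR hF v' hv' := ⟨ht, hs⟩
    rw [h5, mem_bot] at h6
    exact hs1 h6
  have h3 := (H809.IFC.IF.E4 h (nonab hF) (hR' hs) (hR ht) (order_RR hF h2 hs hs1) (order_RR hF h2 ht ht1) hst
    hcomm).2.2.1
  have h4 := le_relIndex hF hv hv' hv0 hn horth hs hs1 ht
  have h5 := index_RR_lt hF hv'0 hv' hs hs1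
  have h6 : fx A (MulAut.conj t) ^ 4 * q ^ 2 < q ^ 4 * q ^ 2 := by
    calc _ ≤ _ := Nat.mul_le_mul_left _ h4
      _ < _ := h3
      _ < q ^ 6 := h5
      _ = _ := by ring
  have h7 : fx A (MulAut.conj t) ^ 4 < q ^ 4 := lt_of_mul_lt_mul_right h6 (Nat.zero_le _)
  exact lt_of_pow_lt_pow_left₀ 4 (Nat.zero_le _) h7

/-- all orthogonal points -/
theorem step5 (hF : Fintype.card F = q ^ 2) (h2 : (2 : F) = 0) (h : IF A Γ) {v v' : Fin 4 → F}
    (hv : hermForm 4 F q v v = 0) (hv' : hermForm 4 F q v' v' = 0) (hv0 : v ≠ 0) (hn : v' ∉ Submodule.span F {v})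
    (horth : hermForm 4 F q v' v = 0) (hR : RR hF v hv ≤ A) (hR' : RR hF v' hv' ≤ A) {x : Fin 4 → F} (hx0 : x ≠ 0)
    (hx : hermForm 4 F q x x = 0) (hxv : hermForm 4 F q x v = 0) : RR hF x hx ≤ A := by
  apply RR_le_of_ne_bot hF h2 h hx0
  intro hbot
  obtain ⟨t, ht, ht1⟩ := exists_RR_ne hF hv0 hv
  have h3 := fx_lt hF h2 h hv hv' hv0 hn horth hR hR' ht ht1
  have h4 := (H999.IFB.IF.E1 h ((h.conj t).2 (hR ht)) (H999.IFB.IF.E2' h (nonab hF) (hR ht)
    (order_RR hF h2 ht ht1)).1 (B := RR hF x hx) (by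
      intro b hb
      have h5 := (RR_commute_iff hF (by norm_num) hx0 hv0 hx hv).2 hxv b hb t ht
      rw [MulAut.conj_apply, ← h5, mul_inv_cancel_right])).1
  have h5 := card_inf_mul_relIndex A (RR hF x hx)
  rw [hbot, Subgroup.card_bot, one_mul, card_RR hF (by norm_num) hx0 hx] at h5
  omega

/-- all points -/
theorem all (hF : Fintype.card F = q ^ 2) (h2 : (2 : F) = 0) (h : IF A Γ) {v v' : Fin 4 → F}
    (hv : hermForm 4 F q v v = 0) (hv' : hermForm 4 F q v' v' = 0) (hv0 : v ≠ 0) (hn : v' ∉ Submodule.span F {v})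
    (horth : hermForm 4 F q v' v = 0) (hR : RR hF v hv ≤ A) (hR' : RR hF v' hv' ≤ A) {x : Fin 4 → F} (hx0 : x ≠ 0)
    (hx : hermForm 4 F q x x = 0) : RR hF x hx ≤ A := by
  by_cases hxv : hermForm 4 F q x v = 0
  · exact step5 hF h2 h hv hv' hv0 hn horth hR hR' hx0 hx hxv
  · have hxn : x ∉ Submodule.span F {v} := by
      intro hsp
      obtain ⟨c, rfl⟩ := Submodule.mem_span_singleton.1 hsp
      exact hxv (by rw [herm_smul_left, hv, mul_zero])
    obtain ⟨y, hy0, hy, hyv, hyx⟩ := exists_perp2_iso hF hv0 hxn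
    have hRy := step5 hF h2 h hv hv' hv0 hn horth hR hR' hy0 hy hyv
    have hvy : v ∉ Submodule.span F {y} := by
      intro hsp
      obtain ⟨c, rfl⟩ := Submodule.mem_span_singleton.1 hsp
      apply hxv
      rw [herm_smul_right, herm_eq_zero_swap hF hyx, mul_zero]
    exact step5 hF h2 h hy hv hy0 hvy (herm_eq_zero_swap hF hyv) hRy hR hx0 hx (herm_eq_zero_swap hF hyx)

theorem kill4 (hF : Fintype.card F = q ^ 2) (h2 : (2 : F) = 0) : KillE (PSU 4 F q) := by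
  intro A Γ h ⟨t, htA, ht⟩
  -- a point
  obtain ⟨u, hu0, hu, hRu⟩ : ∃ (u : Fin 4 → F) (_ : u ≠ 0) (hu : hermForm 4 F q u u = 0), RR hF u hu ≤ A := by
    obtain ⟨g, hg, hg1, rfl⟩ := lift_inv hF h2 ht
    rcases H715.IFU.inv_siegel hF h2 g hg hg1 with ⟨e, μ, hs, he0, rfl⟩ | ⟨e, w, hs, hli, rfl⟩
    · refine ⟨e, he0, hs.iso, RR_le_of_ne_bot hF h2 h he0 hs.iso ?_⟩
      intro hbot
      have h3 : μ + μ ^ q = 0 := (isSiegel_zero_iff hs.iso).1 hs
      have h4 : pr 4 F q (siegel hF e 0 μ hs) ∈ A ⊓ RR hF e hs.iso := ⟨htA, mem_RR.2 ⟨μ, h3, rfl⟩⟩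
      rw [hbot, mem_bot] at h4
      rw [h4, orderOf_one] at ht
      omega
    · have he0 : e ≠ 0 := hli.ne_zero 0
      exact ⟨e, he0, hs.iso, RR_le_of_ne_bot hF h2 h he0 hs.iso (inf_ne_bot hF h hs hli htA ht)⟩
  -- a second point
  obtain ⟨v, hv, hvn, hRv⟩ := second hF h hu0 hu hRu
  have hv0 : v ≠ 0 := by
    rintro rfl
    exact hvn (Submodule.zero_mem _)
  -- an orthogonal pair
  obtain ⟨a, b, ha, hb, ha0, hbn, hab, hRa, hRb⟩ : ∃ (a b : Fin 4 → F) (ha : hermForm 4 F q a a = 0)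
      (hb : hermForm 4 F q b b = 0), a ≠ 0 ∧ b ∉ Submodule.span F {a} ∧ hermForm 4 F q b a = 0 ∧ RR hF a ha ≤ A ∧
      RR hF b hb ≤ A := by
    by_cases hvu : hermForm 4 F q v u = 0
    · exact ⟨u, v, hu, hv, hu0, hvn, hvu, hRu, hRv⟩
    · obtain ⟨v', hv', hn', hvv', hRv'⟩ := orth_of hF h2 h hu0 hu hv hvu hRu hRv
      exact ⟨v, v', hv, hv', hv0, hn', hvv', hRv, hRv'⟩
  have hall : ∀ (x : Fin 4 → F) (_ : x ≠ 0) (hx : hermForm 4 F q x x = 0), RR hF x hx ≤ A := fun x hx0 hx =>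
    all hF h2 h ha hb ha0 hbn hab hRa hRb hx0 hx
  -- the end
  apply h.ne_top
  have h3 : Subgroup.normalClosure ((RR hF u hu : Subgroup (PSU 4 F q)) : Set (PSU 4 F q)) ≤ A := by
    rw [Subgroup.normalClosure, Subgroup.closure_le]
    intro y hy
    rw [Group.mem_conjugatesOfSet_iff] at hy
    obtain ⟨x, hx, hxy⟩ := hy
    obtain ⟨c, hc⟩ := isConj_iff.1 hxy
    obtain ⟨g, rfl⟩ := pr_surjective c
    have hi : hermForm 4 F q (act g u) (act g u) = 0 := by rw [herm_act]; exact hu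
    refine hall (act g u) (fun h0 => hu0 ((act_eq_zero g).1 h0)) hi ?_
    rw [← RR_map_conj hF hu g hi, ← hc]
    exact ⟨x, hx, rfl⟩
  have h4 : Subgroup.normalClosure ((RR hF u hu : Subgroup (PSU 4 F q)) : Set (PSU 4 F q)) = ⊤ := by
    rcases (Subgroup.normalClosure_normal (s := ((RR hF u hu : Subgroup (PSU 4 F q)) :
      Set (PSU 4 F q)))).eq_bot_or_eq_top with h5 | h5
    · exfalso
      obtain ⟨x, hx, hx1⟩ := exists_RR_ne hF hu0 hu
      apply hx1
      rw [← mem_bot, ← h5]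
      exact Subgroup.subset_normalClosure hx
    · exact h5
  exact top_le_iff.1 (h4 ▸ h3)

end Cfsg.Agent.H361.IFU4

namespace Cfsg.Agent.H361.IFU4

open Cfsg Cfsg.Agent.H209.Fxy

/-- **The cell `PSU_4(q)`, `q` even.** -/
theorem even {F : Type*} [Field F] [Fintype F] {q : ℕ} (hF : Fintype.card F = q ^ 2) (he : Even q)
    [IsSimpleGroup (PSU 4 F q)] : KillE (PSU 4 F q) := by
  have h2 : (2 : F) = 0 := by
    have h3 : ((Fintype.card F : ℕ) : F) = 0 := FiniteField.cast_card_eq_zero F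
    obtain ⟨p, hp⟩ := CharP.exists F
    have hpp : p.Prime := CharP.char_is_prime F p
    obtain ⟨n, -, hn⟩ := FiniteField.card F p
    have h4 : 2 ∣ p ^ (n : ℕ) := by
      rw [← hn, hF]
      exact (even_iff_two_dvd.1 he).trans (dvd_pow_self q two_ne_zero)
    have h5 : 2 = p := (Nat.prime_dvd_prime_iff_eq Nat.prime_two hpp).1 (Nat.prime_two.dvd_of_dvd_pow h4)
    have h6 : ((2 : ℕ) : F) = 0 := by
      rw [h5]
      exact CharP.cast_eq_zero F p
    exact_mod_cast h6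
  have : Finite (PSU 4 F q) := Quotient.finite _
  exact kill4 hF h2

end Cfsg.Agent.H361.IFU4
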